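import Cfsg.Agent.H326.QS.VP
import Cfsg.Agent.KFacts.TwESix.OutTwo

/-!
# `V → P \ V` in `²E₆(2)`

* `card_X0` : the long root groups of `²E₆(2)` have order 2;
* `vpE` : every nontrivial element of `V` is conjugate to an element of `P \ V`, in `↥(twistedE6 K 2)`.
-/

set_option autoImplicit false
set_option linter.unusedSectionVars false

namespace Cfsg.Agent.H326.QS.VPE

open CoxeterSystem Cfsg.Agent.ChevalleyStructure.CoxeterGeom Cfsg.Agent.Tits.Roots Cfsg.Agent.Tits.Core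
  Cfsg.Agent.Nodes.Reps Cfsg.Agent.Nodes.BNOf Cfsg.Agent.Nodes.StabComb Cfsg.Agent.Nodes.Bruhat
  Cfsg.Agent.Nodes.OppDec Cfsg.Agent.Nodes.LeviDec Cfsg.Agent.KFacts.RgdSL Cfsg.Agent.KFacts.RgdTI
  Cfsg.Agent.Nodes.RGDTwE6 Cfsg.Agent.KFacts.TwESix.Comb Cfsg.Agent.H326.QS.VP
open Cfsg.Agent.Nodes.RGDFoldSL (Fx mem_Fx)
open Cfsg.Lie

universe u

variable {K : Type u} [Field K] [Fintype K] {φ : K →+* K}
variable {W : Type*} [Group W] (cs : CoxeterSystem CoxeterMatrix.F₄ W)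

theorem card_F {q : ℕ} (h2 : q = 2) (hφ : ∀ x, φ x = x ^ q) : Nat.card (Fx φ 1) = 2 := by
  subst h2
  rw [Nat.card_eq_two_iff]
  refine ⟨0, 1, zero_ne_one, ?_⟩
  ext ⟨x, hx⟩
  simp only [Set.mem_insert_iff, Set.mem_singleton_iff, Set.mem_univ, iff_true]
  have h1 : φ x = x := by
    have := mem_Fx.1 hx
    simpa using this
  rw [hφ] at h1
  have h3 : x * (x - 1) = 0 := by linear_combination h1
  rcases mul_eq_zero.1 h3 with h | h
  · left; exact Subtype.ext h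
  · right; exact Subtype.ext (sub_eq_zero.1 h)

theorem card_X0 (hφ : ∀ x, φ x = x ^ 2) (hqq : ∀ t : K, (t ^ 2) ^ 2 = t) : Nat.card ↥(X φ 2 (sr 0)) = 2 := by
  have h1 := Cfsg.Agent.KFacts.TwESix.OutTwo.card_of_coord (Cfsg.Agent.KFacts.TwESix.Out.coordE hφ hqq 0)
  rw [h1]
  exact card_F rfl hφ

/-- **`V → P \ V` in `²E₆(2)`.** -/
theorem vpE [CharP K 2] (hφ : ∀ x, φ x = x ^ 2) (hqq : ∀ t : K, (t ^ 2) ^ 2 = t) {v : ↥(twistedE6 K 2)}
    (hv : v ∈ VJ cs isCartan (X φ 2) J) (hv1 : v ≠ 1) :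
    ∃ y : ↥(twistedE6 K 2), y * v * y⁻¹ ∈ PJ cs isCartan (T K 2) (X φ 2) J ∧
      y * v * y⁻¹ ∉ VJ cs isCartan (X φ 2) J := by
  have : Fact (Nat.Prime 2) := ⟨Nat.prime_two⟩
  exact vp_of_card (rgd cs hφ hqq 2) (fun a ha hl => Cfsg.Agent.KFacts.TwESix.Grp.lr_long cs hφ hqq 2 ha hl)
    (card_X0 hφ hqq) hv hv1

end Cfsg.Agent.H326.QS.VPE
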