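import Cfsg.Agent.H326.QS.FiFinal

/-!
# The row `Fi22` of S2491 in the form of H323/QS/Asm (helper326)
-/

set_option autoImplicit false

namespace Cfsg.Agent.H326.QS.FiRow

universe u

open Cfsg Cfsg.Agent.H6.QO in
/-- the field `fi22` of `QRows` -/
theorem row_fi22 {K : Type u} [Group K] (h : Spor.IsoFi22 K) : RowN K := by
  obtain ⟨e⟩ := h
  exact rowN_Fi22.congr e.symm

end Cfsg.Agent.H326.QS.FiRow
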