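import Cfsg.Agent.KFacts.TwESix.Btw
import Cfsg.Agent.KFacts.TwESix.Facts
import Cfsg.Agent.Nodes.LeviDec

/-!
# Row `²E₆(2)` of `QS`: every nontrivial element of `V` is conjugate to an element of `P \ V`

`R` a root group datum of type `F₄` (Cartan matrix of `Nodes.RGDTwE6`: nodes `0, 1` long), whose long root groups
have order 2; `J = {1, 2, 3}`, `P = PJ`, `V = VJ` its unipotent radical.

* `vp` : for `1 ≠ v ∈ V` there is `y` with `y v y⁻¹ ∈ P \ V`.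
-/

set_option autoImplicit false
set_option linter.unusedSectionVars false

namespace Cfsg.Agent.H326.QS.VP

open CoxeterSystem Cfsg.Agent.ChevalleyStructure.CoxeterGeom Cfsg.Agent.Tits.Roots Cfsg.Agent.Tits.Core
  Cfsg.Agent.Tits.RootComb Cfsg.Agent.Nodes.Reps Cfsg.Agent.Nodes.BNOf Cfsg.Agent.Nodes.Coroot
  Cfsg.Agent.Nodes.StabComb Cfsg.Agent.Nodes.Bruhat Cfsg.Agent.Nodes.OppDec Cfsg.Agent.Nodes.LeviDec
  Cfsg.Agent.KFacts.RgdSL Cfsg.Agent.KFacts.RgdTI Cfsg.Agent.Nodes.RGDTwE6 Cfsg.Agent.KFacts.TwESix.Comb Cfsg.Agent.KFacts.TwESix.Btw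
open scoped commutatorElement

variable {W Y : Type*} [Group W] [Group Y] {cs : CoxeterSystem CoxeterMatrix.F₄ W} {p : ℕ} {T : Subgroup Y}
  {n : Fin 4 → Y} {X : (Fin 4 → ℤ) → Subgroup Y}

/-- the roots with the property `P` -/
def Q (P : (Fin 4 → ℤ) → Prop) : Set (Fin 4 → ℤ) := {x | x ∈ rts ∧ P x}

/-- the simple roots `1, 2, 3` -/
abbrev J : Set (Fin 4) := {1, 2, 3}

theorem not_mem_J {k : Fin 4} : k ∉ J ↔ k = 0 := by
  revert k; decide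

theorem NotJ_eq : NotJ cs isCartan J = Q (fun x => 1 ≤ x 0) := by
  ext x
  constructor
  · rintro ⟨hx, -, k, hk, hk0⟩
    rw [not_mem_J] at hk
    subst hk
    exact ⟨(mem_rts cs).1 hx, hk0⟩
  · rintro ⟨hx, h0⟩
    refine ⟨(mem_rts cs).2 hx, ?_, 0, by decide, h0⟩
    have h1 : ∀ x ∈ rts, 1 ≤ x 0 → ∀ k, 0 ≤ x k := by decide +kernel
    exact fun k => h1 x hx h0 k

theorem RootsJ_eq : RootsJ cs isCartan J = Q (fun x => x 0 = 0) := by
  ext x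
  constructor
  · rintro ⟨hx, h1⟩
    exact ⟨(mem_rts cs).1 hx, h1 0 (by decide)⟩
  · rintro ⟨hx, h0⟩
    refine ⟨(mem_rts cs).2 hx, fun k hk => ?_⟩
    rw [not_mem_J] at hk
    subst hk
    exact h0

theorem cj_root (i : Fin 4) (x : Fin 4 → ℤ) :
    rep cs isCartan (cs.simple i) x = Cfsg.Agent.Nodes.RGDFold.refl A i x := rep_simple_refl cs i x

variable (R : RGD cs isCartan p T n X)

include R

theorem norm_of {x : Fin 4 → ℤ} (hx : x ∈ rts) {P : (Fin 4 → ℤ) → Prop}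
    (hP : ∀ y ∈ rts, P y → x = y ∨ (x ≠ -y ∧ ∀ z ∈ rts, bt x y z → P z)) :
    X x ≤ Subgroup.normalizer (RGD.Sup X (Q P) : Set Y) := by
  refine R.le_normalizer ((mem_rts cs).2 hx) ?_
  rintro y ⟨hy, hPy⟩
  refine ⟨(mem_rts cs).2 hy, ?_⟩
  by_cases hxy : x = y
  · exact Or.inl hxy
  rcases hP y hy hPy with h1 | ⟨h1, h2⟩
  · exact Or.inl h1
  · refine Or.inr ⟨h1, fun z hz => ?_⟩
    obtain ⟨h3, h4⟩ := btwn_spec cs ((mem_rts cs).2 hx) ((mem_rts cs).2 hy) hxy h1 hz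
    exact ⟨h3, h2 z h3 h4⟩

/-- splitting off a set of roots -/
theorem split {P P₁ P₂ : (Fin 4 → ℤ) → Prop} (h0 : ∀ x ∈ rts, P x → P₁ x ∨ P₂ x)
    (h1 : ∀ x ∈ rts, P₁ x → ∀ y ∈ rts, P₂ y → x = y ∨ (x ≠ -y ∧ ∀ z ∈ rts, bt x y z → P₂ z))
    {g : Y} (hg : g ∈ RGD.Sup X (Q P)) :
    ∃ a ∈ RGD.Sup X (Q P₁), ∃ b ∈ RGD.Sup X (Q P₂), g = a * b := by
  have hn : RGD.Sup X (Q P₁) ≤ Subgroup.normalizer (RGD.Sup X (Q P₂) : Set Y) :=
    RGD.Sup_le fun x hx => norm_of R hx.1 (h1 x hx.1 hx.2)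
  have h2 : g ∈ ((RGD.Sup X (Q P₁) ⊔ RGD.Sup X (Q P₂) : Subgroup Y) : Set Y) := by
    refine (?_ : RGD.Sup X (Q P) ≤ _) hg
    refine RGD.Sup_le fun z hz => ?_
    rcases h0 z hz.1 hz.2 with h | h
    · exact le_trans (RGD.le_Sup (S := Q P₁) ⟨hz.1, h⟩) le_sup_left
    · exact le_trans (RGD.le_Sup (S := Q P₂) ⟨hz.1, h⟩) le_sup_right
  rw [Subgroup.coe_mul_of_left_le_normalizer_right _ _ hn, Set.mem_mul] at h2
  obtain ⟨a, ha, b, hb, e⟩ := h2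
  exact ⟨a, ha, b, hb, e.symm⟩

theorem conj_norm {x : Fin 4 → ℤ} (hx : x ∈ rts) {P : (Fin 4 → ℤ) → Prop}
    (hP : ∀ y ∈ rts, P y → x = y ∨ (x ≠ -y ∧ ∀ z ∈ rts, bt x y z → P z)) {u g : Y} (hu : u ∈ X x)
    (hg : g ∈ RGD.Sup X (Q P)) : u * g * u⁻¹ ∈ RGD.Sup X (Q P) :=
  (Subgroup.mem_normalizer_iff.1 (norm_of R hx hP hu) g).1 hg

theorem conj_Q {w : W} {g : Y} (hg : Rp cs R.nsys w g) {P P' : (Fin 4 → ℤ) → Prop}
    (hP : ∀ x ∈ rts, P x → P' (rep cs isCartan w x)) {a : Y} (ha : a ∈ RGD.Sup X (Q P)) :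
    g * a * g⁻¹ ∈ RGD.Sup X (Q P') :=
  conj_mem_Sup R hg (fun x hx => (mem_rts cs).2 hx.1)
    (fun x hx => (⟨(mem_rts cs).1 (((mem_rts cs).2 hx.1).act w), hP x hx.1 hx.2⟩ :
      rep cs isCartan w x ∈ Q P')) ha

theorem conj_n {i : Fin 4} {P P' : (Fin 4 → ℤ) → Prop}
    (hP : ∀ x ∈ rts, P x → P' (Cfsg.Agent.Nodes.RGDFold.refl A i x)) {a : Y} (ha : a ∈ RGD.Sup X (Q P)) :
    n i * a * (n i)⁻¹ ∈ RGD.Sup X (Q P') := by
  refine conj_Q R (rp_simple cs R.nsys i) (fun x hx h => ?_) ha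
  rw [cj_root]
  exact hP x hx h

/-- `X x` for the single root `x` -/
theorem Sup_single {x : Fin 4 → ℤ} (hx : x ∈ rts) : RGD.Sup X (Q (fun y => y = x)) = X x := by
  apply le_antisymm
  · refine RGD.Sup_le fun z hz => ?_
    rw [hz.2]
  · exact RGD.le_Sup (S := Q (fun y => y = x)) ⟨hx, rfl⟩

section
variable (h2 : ∀ a ∈ X (sr 0), ∀ b ∈ X (sr 0), a ≠ 1 → b ≠ 1 → a = b)

include h2

/-- the long root groups have at most one nontrivial element -/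
theorem eq_of_long {x : Fin 4 → ℤ} (hx : x ∈ rts) (hl : bf x x = 4) {a b : Y} (ha : a ∈ X x) (hb : b ∈ X x)
    (ha1 : a ≠ 1) (hb1 : b ≠ 1) : a = b := by
  obtain ⟨w, hw⟩ := exists_rep_long cs ((mem_rts cs).2 hx) hl
  obtain ⟨g, hg⟩ := exists_rp cs R.nsys w
  have key : ∀ {c : Y}, c ∈ X x → g⁻¹ * c * g ∈ X (sr 0) := by
    intro c hc
    have h3 := R.conj_mem' hg ((mem_rts cs).2 hx) hc
    rwa [← hw, rep_inv_apply] at h3
  have h3 := h2 _ (key ha) _ (key hb)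
    (fun h => ha1 (by simpa [mul_assoc, mul_eq_one_iff_eq_inv] using h))
    (fun h => hb1 (by simpa [mul_assoc, mul_eq_one_iff_eq_inv] using h))
  exact mul_left_cancel (mul_right_cancel h3)

/-- in an `A₂`-pair of long roots: `X (x+y)`-components are moved away by `X x` -/
theorem kill {x y : Fin 4 → ℤ} (hx : x ∈ rts) (hy : y ∈ rts) (hlx : bf x x = 4) (hly : bf y y = 4)
    (hxy : bf x y = -2) {a b : Y} (ha : a ∈ X (x + y)) (hb : b ∈ X y) (ha1 : a ≠ 1) (hb1 : b ≠ 1) :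
    ∃ u ∈ X x, u * (a * b) * u⁻¹ = b := by
  have : Finite W := finiteW cs
  have hA : A2 cs isCartan x y := a2 cs ((mem_rts cs).2 hx) ((mem_rts cs).2 hy) (by rw [hlx, hly]) (by
    rw [hxy, hlx]; norm_num)
  obtain ⟨u, hu, hu1⟩ : ∃ u ∈ X x, u ≠ 1 := by
    have := X_ne_bot R hA.rx
    rw [Subgroup.ne_bot_iff_exists_ne_one] at this
    obtain ⟨⟨u, hu⟩, h1⟩ := this
    exact ⟨u, hu, fun h2 => h1 (Subtype.ext h2)⟩
  have hxyr : x + y ∈ rts := (mem_rts cs).1 hA.rxy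
  have hl : bf (x + y) (x + y) = 4 := by
    rw [bf_add_left, bf_add_right, bf_add_right, bf_comm y x, hlx, hly, hxy]; norm_num
  have h3 : ⁅u, b⁆ = a := eq_of_long R h2 hxyr hl (hA.comm_mem R hu hb) ha (hA.comm_ne_one R hu hu1 hb hb1) ha1
  have h4 : a * u = u * a := hA.comm_left R ha hu
  have h5 : a⁻¹ = a := by
    by_cases h : a⁻¹ = 1
    · exact absurd (inv_eq_one.1 h) ha1
    · exact eq_of_long R h2 hxyr hl (inv_mem ha) ha h ha1
  refine ⟨u, hu, ?_⟩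
  calc u * (a * b) * u⁻¹ = (u * a) * b * u⁻¹ := by group
    _ = a * (u * b * u⁻¹ * b⁻¹) * b := by rw [← h4]; group
    _ = a * a * b := by rw [← commutatorElement_def, h3]
    _ = b := by
      nth_rw 1 [← h5]
      group

/-- Step 1: into the roots with `x 1 ≥ 1`. -/
theorem step1 {v : Y} (hv : v ∈ RGD.Sup X (Q (fun x => 1 ≤ x 0))) :
    ∃ y : Y, y * v * y⁻¹ ∈ RGD.Sup X (Q (fun x => 1 ≤ x 0 ∧ 1 ≤ x 1)) := by
  obtain ⟨a, ha, v', hv', rfl⟩ := split R (P₁ := fun x => x = sr 0) (P₂ := fun x => 1 ≤ x 0 ∧ 1 ≤ x 1)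
    (by decide +kernel) (by decide +kernel) hv
  obtain ⟨b, hb, r, hr, rfl⟩ := split R (P₁ := fun x => x = sr 0 + sr 1)
    (P₂ := fun x => 1 ≤ x 0 ∧ 1 ≤ x 1 ∧ x ≠ sr 0 + sr 1) (by decide +kernel) (by decide +kernel) hv'
  rw [Sup_single R (by decide +kernel)] at ha hb
  have hmono : ∀ {g : Y}, g ∈ RGD.Sup X (Q (fun x => 1 ≤ x 0 ∧ 1 ≤ x 1 ∧ x ≠ sr 0 + sr 1)) →
      g ∈ RGD.Sup X (Q (fun x => 1 ≤ x 0 ∧ 1 ≤ x 1)) := fun {g} hg =>
    RGD.Sup_mono (fun x hx => (⟨hx.1, hx.2.1, hx.2.2.1⟩ : x ∈ Q (fun x => 1 ≤ x 0 ∧ 1 ≤ x 1))) hg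
  have hb' : ∀ {g : Y}, g ∈ X (sr 0 + sr 1) → g ∈ RGD.Sup X (Q (fun x => 1 ≤ x 0 ∧ 1 ≤ x 1)) := fun {g} hg =>
    RGD.le_Sup (S := Q (fun x => 1 ≤ x 0 ∧ 1 ≤ x 1)) ⟨by decide +kernel, by decide +kernel⟩ hg
  by_cases ha1 : a = 1
  · refine ⟨1, ?_⟩
    rw [ha1, one_mul, one_mul, inv_one, mul_one]
    exact mul_mem (hb' hb) (hmono hr)
  by_cases hb1 : b = 1
  · refine ⟨n 1, ?_⟩
    have e : n 1 * (a * (b * r)) * (n 1)⁻¹ = (n 1 * a * (n 1)⁻¹) * (n 1 * r * (n 1)⁻¹) := by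
      rw [hb1]; group
    rw [e]
    refine mul_mem ?_ ?_
    · rw [← Sup_single R (by decide +kernel)] at ha
      exact conj_n R (P' := fun x => 1 ≤ x 0 ∧ 1 ≤ x 1) (by decide +kernel) ha
    · exact conj_n R (P' := fun x => 1 ≤ x 0 ∧ 1 ≤ x 1) (by decide +kernel) hr
  · obtain ⟨u, hu, e⟩ := kill R h2 (x := -sr 1) (y := sr 0 + sr 1) (by decide +kernel) (by decide +kernel)
      (by decide +kernel) (by decide +kernel) (by decide +kernel) (a := a) (b := b)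
      (by rwa [show (-sr 1 + (sr 0 + sr 1) : Fin 4 → ℤ) = sr 0 by abel]) hb ha1 hb1
    refine ⟨u, ?_⟩
    have e' : u * (a * (b * r)) * u⁻¹ = (u * (a * b) * u⁻¹) * (u * r * u⁻¹) := by group
    rw [e', e]
    exact mul_mem (hb' hb) (hmono (conj_norm R (by decide +kernel) (by decide +kernel) hu hr))

/-- **`V → P \ V`.** -/
theorem vp (hlr : ∀ a, IsRoot cs isCartan a → bf a a = 4 → LR R a) {v : Y} (hv : v ∈ VJ cs isCartan X J) (hv1 : v ≠ 1) :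
    ∃ y : Y, y * v * y⁻¹ ∈ PJ cs isCartan T X J ∧ y * v * y⁻¹ ∉ VJ cs isCartan X J := by
  have : Finite W := finiteW cs
  have hVeq : VJ cs isCartan X J = RGD.Sup X (Q (fun x => 1 ≤ x 0)) := by
    unfold VJ; rw [NotJ_eq]
  have hL : RGD.Sup X (Q (fun x => x 0 = 0)) ≤ LJ cs isCartan T X J := by
    refine RGD.Sup_le fun x hx => X_le_LJ ?_
    rw [RootsJ_eq]; exact hx
  -- the criterion
  have crit : ∀ l ∈ RGD.Sup X (Q (fun x => x 0 = 0)), l ≠ 1 → ∀ r ∈ VJ cs isCartan X J,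
      l * r ∈ PJ cs isCartan T X J ∧ l * r ∉ VJ cs isCartan X J := by
    intro l hl hl1 r hr
    refine ⟨mul_mem (LJ_le_PJ (hL hl)) (VJ_le_PJ hr), fun hm => hl1 ?_⟩
    have h3 : l ∈ VJ cs isCartan X J := by
      have h4 := mul_mem hm (inv_mem hr)
      rwa [mul_assoc, mul_inv_cancel, mul_one] at h4
    exact eq_one_of_mem_LJ_of_mem_VJ R (hL hl) h3
  have crit' : ∀ v' y' : Y, (∃ l ∈ RGD.Sup X (Q (fun x => x 0 = 0)), l ≠ 1 ∧ ∃ r ∈ VJ cs isCartan X J,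
      y' * v' * y'⁻¹ = l * r) → ∀ v y : Y, y * v * y⁻¹ = v' →
      ∃ z : Y, z * v * z⁻¹ ∈ PJ cs isCartan T X J ∧ z * v * z⁻¹ ∉ VJ cs isCartan X J := by
    rintro v' y' ⟨l, hl, hl1, r, hr, e⟩ v y rfl
    refine ⟨y' * y, ?_⟩
    have e2 : y' * y * v * (y' * y)⁻¹ = y' * (y * v * y⁻¹) * y'⁻¹ := by group
    rw [e2, e]
    exact crit l hl hl1 r hr
  rw [hVeq] at hv
  obtain ⟨y, hy⟩ := step1 R h2 hv
  -- Step 2
  obtain ⟨v1, hv1', g, hg, e1⟩ := split R (P₁ := fun x => x 0 = 1 ∧ x 1 = 1) (P₂ := fun x => 1 ≤ x 0 ∧ 2 ≤ x 1)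
    (by decide +kernel) (by decide +kernel) hy
  have conj_ne : ∀ {a b : Y}, b ≠ 1 → a * b * a⁻¹ ≠ 1 := by
    intro a b hb h
    exact hb (by simpa [mul_assoc, mul_eq_one_iff_eq_inv] using h)
  by_cases h1 : v1 = 1
  swap
  · refine crit' (v1 * g) (n 0) ⟨n 0 * v1 * (n 0)⁻¹, ?_, conj_ne h1, n 0 * g * (n 0)⁻¹, ?_, by group⟩ v y e1
    · exact conj_n R (P' := fun x => x 0 = 0) (by decide +kernel) hv1'
    · rw [hVeq]
      exact conj_n R (P' := fun x => 1 ≤ x 0) (by decide +kernel) hg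
  -- Step 3
  rw [h1, one_mul] at e1
  have hg1 : g ≠ 1 := by rw [← e1]; exact conj_ne hv1
  obtain ⟨b, hb, z, hz, rfl⟩ := split R (P₁ := fun x => x 0 = 1 ∧ x 1 = 2) (P₂ := fun x => 1 ≤ x 0 ∧ 3 ≤ x 1)
    (by decide +kernel) (by decide +kernel) hg
  obtain ⟨z1, hz1, z2, hz2, rfl⟩ := split R (P₁ := fun x => x = ![1, 3, 4, 2]) (P₂ := fun x => x = rho)
    (by decide +kernel) (by decide +kernel) hz
  -- moving `z1 z2` into `X rho`
  obtain ⟨y2, c, hc, t, ht, e2⟩ : ∃ y2 : Y, ∃ c ∈ RGD.Sup X (Q (fun x => x 0 = 1 ∧ x 1 = 2)), ∃ t ∈ X rho,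
      y2 * (b * (z1 * z2)) * y2⁻¹ = c * t := by
    rw [Sup_single R (by decide +kernel)] at hz1 hz2
    by_cases hz11 : z1 = 1
    · exact ⟨1, b, hb, z2, hz2, by rw [hz11]; group⟩
    by_cases hz21 : z2 = 1
    · refine ⟨n 0, n 0 * b * (n 0)⁻¹, conj_n R (by decide +kernel) hb, n 0 * z1 * (n 0)⁻¹, ?_, by rw [hz21]; group⟩
      rw [← Sup_single R (x := rho) (by decide +kernel)]
      rw [← Sup_single R (by decide +kernel)] at hz1
      exact conj_n R (by decide +kernel) hz1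
    · obtain ⟨u, hu, e⟩ := kill R h2 (x := -sr 0) (y := rho) (by decide +kernel) (by decide +kernel)
        (by decide +kernel) (by decide +kernel) (by decide +kernel) (a := z1) (b := z2)
        (by rwa [show (-sr 0 + rho : Fin 4 → ℤ) = ![1, 3, 4, 2] by decide +kernel]) hz2 hz11 hz21
      have hub : u * b = b * u := by
        have h3 : RGD.Sup X (Q (fun x => x 0 = 1 ∧ x 1 = 2)) ≤ Subgroup.centralizer ({u} : Set Y) := by
          refine RGD.Sup_le fun x hx c hc => ?_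
          rw [Subgroup.mem_centralizer_singleton_iff]
          have h4 : ∀ x ∈ rts, x 0 = 1 ∧ x 1 = 2 → 0 ≤ bf x (-sr 0) := by decide +kernel
          exact (hlr (-sr 0) (isRoot_sr cs isCartan 0).neg (by decide +kernel)).comm x ((mem_rts cs).2 hx.1)
            ((ge_iff cs (isRoot_sr cs isCartan 0).neg (by decide +kernel)).2 (h4 x hx.1 hx.2)) c hc u hu
        exact (Subgroup.mem_centralizer_singleton_iff.1 (h3 hb)).symm
      refine ⟨u, b, hb, z2, hz2, ?_⟩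
      have e' : u * (b * (z1 * z2)) * u⁻¹ = (u * b * u⁻¹) * (u * (z1 * z2) * u⁻¹) := by group
      rw [e', e, hub]
      group
  have e3 : (y2 * y) * v * (y2 * y)⁻¹ = c * t := by
    rw [← e2, ← e1]; group
  have hct : c * t ≠ 1 := by rw [← e3]; exact conj_ne hv1
  -- Step 4
  by_cases hc1 : c = 1
  · -- `t ≠ 1`
    rw [hc1, one_mul] at e3 hct
    obtain ⟨w, hw⟩ := exists_rep_long cs (rho_root cs) rho_long
    obtain ⟨w', hw'⟩ := exists_rep_long cs (isRoot_sr cs isCartan 1) sr_norm.2.1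
    obtain ⟨k, hk⟩ := exists_rp cs R.nsys (w' * w⁻¹)
    have h3 : rep cs isCartan (w' * w⁻¹) rho = sr 1 := by
      rw [rep_mul_apply, ← hw, rep_inv_apply, hw']
    have h4 := R.conj_mem hk (rho_root cs) ht
    rw [h3] at h4
    refine crit' t k ⟨k * t * k⁻¹, ?_, conj_ne hct, 1, one_mem _, by rw [mul_one]⟩ v (y2 * y) e3
    exact RGD.le_Sup (S := Q (fun x => x 0 = 0)) ⟨by decide +kernel, by decide +kernel⟩ h4
  · obtain ⟨w, hw⟩ := exists_rep_long cs (rho_root cs) rho_long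
    obtain ⟨k, hk⟩ := exists_rp cs R.nsys w
    have key : ∀ x, rep cs isCartan w x 0 = 2 * x 0 - x 1 := by
      intro x
      have h3 := bf_rho (rep cs isCartan w x)
      nth_rw 1 [← hw] at h3
      rw [bf_rep] at h3
      have h4 : bf x (sr 0) = 4 * x 0 - 2 * x 1 := by
        unfold bf
        simp [sr]
      omega
    refine crit' (c * t) k ⟨k * c * k⁻¹, ?_, conj_ne hc1, k * t * k⁻¹, ?_, by group⟩ v (y2 * y) e3
    · refine conj_Q R hk (P' := fun x => x 0 = 0) (fun x _ hx => ?_) hc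
      rw [key]; omega
    · rw [hVeq]
      rw [← Sup_single R (x := rho) (by decide +kernel)] at ht
      refine conj_Q R hk (P' := fun x => 1 ≤ x 0) (fun x _ hx => ?_) ht
      rw [key, hx]
      decide
end

omit R in
theorem eq_of_card {S : Subgroup Y} (hc : Nat.card S = 2) : ∀ a ∈ S, ∀ b ∈ S, a ≠ 1 → b ≠ 1 → a = b := by
  intro a ha b hb ha1 hb1
  obtain ⟨x, y, hxy, hu⟩ := Nat.card_eq_two_iff.1 hc
  have key : ∀ c : S, c = x ∨ c = y := by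
    intro c
    have h3 : c ∈ ({x, y} : Set S) := by rw [hu]; trivial
    simpa using h3
  have h1 : (1 : S) ≠ ⟨a, ha⟩ := fun h => ha1 (congrArg Subtype.val h).symm
  have h2 : (1 : S) ≠ ⟨b, hb⟩ := fun h => hb1 (congrArg Subtype.val h).symm
  have h3 : (⟨a, ha⟩ : S) = ⟨b, hb⟩ := by
    rcases key 1 with e1 | e1 <;> rcases key ⟨a, ha⟩ with e2 | e2 <;> rcases key ⟨b, hb⟩ with e3 | e3 <;>
      simp_all
  exact congrArg Subtype.val h3

/-- **`V → P \ V`**, from the order of `X α₀`. -/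
theorem vp_of_card (hlr : ∀ a, IsRoot cs isCartan a → bf a a = 4 → LR R a) (hc : Nat.card (X (sr 0)) = 2)
    {v : Y} (hv : v ∈ VJ cs isCartan X J) (hv1 : v ≠ 1) :
    ∃ y : Y, y * v * y⁻¹ ∈ PJ cs isCartan T X J ∧ y * v * y⁻¹ ∉ VJ cs isCartan X J :=
  vp R (eq_of_card hc) hlr hv hv1

end Cfsg.Agent.H326.QS.VP
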